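import Cfsg.Agent.Lib.CIT.Basic
import Mathlib

/-!
Finite groups in which every non-identity element has prime power order.
-/

set_option autoImplicit false

open Cfsg

namespace CfsgLib.Eppo

/-- Every non-identity element has prime power order. -/
def IsEPPO (G : Type*) [Group G] : Prop :=
  ∀ g : G, g ≠ 1 → IsPrimePow (orderOf g)

variable {G : Type*} [Group G]

theorem IsEPPO.of_injective {H : Type*} [Group H] (hG : IsEPPO G) (f : H →* G) (hf : Function.Injective f) :
    IsEPPO H := fun h hh => orderOf_injective f hf h ▸ hG (f h) fun e => hh (hf (by rw [e, map_one]))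

theorem IsEPPO.of_equiv {H : Type*} [Group H] (hG : IsEPPO G) (e : G ≃* H) : IsEPPO H :=
  hG.of_injective e.symm.toMonoidHom e.symm.injective

theorem IsEPPO.subgroup (hG : IsEPPO G) (H : Subgroup G) : IsEPPO H :=
  hG.of_injective H.subtype H.subtype_injective

theorem IsEPPO.quotient [Finite G] (hG : IsEPPO G) (N : Subgroup G) [N.Normal] : IsEPPO (G ⧸ N) := by
  intro g hg
  obtain ⟨g, rfl⟩ := QuotientGroup.mk'_surjective N g
  have h1 : g ≠ 1 := fun e => hg (by rw [e, map_one])
  exact (hG g h1).dvd (orderOf_map_dvd _ _) (fun e => hg (orderOf_eq_one_iff.1 e))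

/-- Two distinct primes dividing the order of an element is impossible. -/
theorem IsEPPO.prime_eq (hG : IsEPPO G) {g : G} {p r : ℕ} (hp : p.Prime) (hr : r.Prime)
    (hpg : p ∣ orderOf g) (hrg : r ∣ orderOf g) : p = r := by
  rcases eq_or_ne g 1 with rfl | h1
  · rw [orderOf_one] at hpg
    exact absurd (Nat.dvd_one.1 hpg) hp.one_lt.ne'
  obtain ⟨q, k, hq, -, e⟩ := (isPrimePow_nat_iff _).1 (hG g h1)
  rw [← e] at hpg hrg
  rw [(Nat.prime_dvd_prime_iff_eq hp hq).1 (hp.dvd_of_dvd_pow hpg),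
    (Nat.prime_dvd_prime_iff_eq hr hq).1 (hr.dvd_of_dvd_pow hrg)]

/-- Commuting elements of coprime non-trivial orders do not exist. -/
theorem IsEPPO.not_coprime_commute [Finite G] (hG : IsEPPO G) {a b : G} (ha : a ≠ 1) (hb : b ≠ 1)
    (hc : Commute a b) : ¬ (orderOf a).Coprime (orderOf b) := by
  intro hco
  obtain ⟨p, hp, hpa⟩ := Nat.exists_prime_and_dvd (fun e => ha (orderOf_eq_one_iff.1 e))
  obtain ⟨r, hr, hrb⟩ := Nat.exists_prime_and_dvd (fun e => hb (orderOf_eq_one_iff.1 e))
  have ho := hc.orderOf_mul_eq_mul_orderOf_of_coprime hco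
  have := hG.prime_eq hp hr (g := a * b) (ho ▸ hpa.mul_right _) (ho ▸ hrb.mul_left _)
  subst this
  exact hp.one_lt.ne' (Nat.eq_one_of_dvd_coprimes hco hpa hrb)

/-- Involution centralisers are `2`-groups. -/
theorem IsEPPO.isCIT [Finite G] (hG : IsEPPO G) : CIT.IsCIT G := by
  intro t ht
  rw [IsPGroup.iff_orderOf]
  intro x
  rw [← Subgroup.orderOf_coe]
  by_cases h1 : (x : G) = 1
  · exact ⟨0, by rw [h1, orderOf_one, pow_zero]⟩
  obtain ⟨p, k, hp, -, e⟩ := (isPrimePow_nat_iff _).1 (hG _ h1)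
  by_cases h2 : p = 2
  · exact ⟨k, by rw [← e, h2]⟩
  refine absurd ?_ (hG.not_coprime_commute (a := t) (b := (x : G)) (fun e => by simp [e] at ht) h1
    (Subgroup.mem_centralizer_singleton_iff.1 x.2).symm)
  rw [ht, ← e]
  exact Nat.Coprime.pow_right _ ((Nat.coprime_primes Nat.prime_two hp).2 (Ne.symm h2))

/-- Some element of order `k` makes `k` a prime power. -/
theorem IsEPPO.isPrimePow_of_orderOf (hG : IsEPPO G) {g : G} {k : ℕ} (hk : orderOf g = k) (h1 : 1 < k) :
    IsPrimePow k := hk ▸ hG g fun e => by rw [e, orderOf_one] at hk; omega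

end CfsgLib.Eppo
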