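import Cfsg.Agent.Lib.Spectrum.PowerArith
import Mathlib

/-!
Arithmetic for the simple groups with all elements of prime power order.
-/

set_option autoImplicit false

namespace CfsgLib.Eppo

theorem eq_prime_pow_of_dvd {n r : ℕ} (hn : IsPrimePow n) (hr : r.Prime) (hd : r ∣ n) :
    ∃ i, 0 < i ∧ n = r ^ i := by
  obtain ⟨q, k, hq, hk, e⟩ := (isPrimePow_nat_iff _).1 hn
  rw [← e] at hd
  exact ⟨k, hk, by rw [(Nat.prime_dvd_prime_iff_eq hr hq).1 (hr.dvd_of_dvd_pow hd), e]⟩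

theorem three_dvd_two_pow_sub_one {n : ℕ} (hn : Even n) : 3 ∣ 2 ^ n - 1 := by
  obtain ⟨c, rfl⟩ := hn
  rw [← two_mul, pow_mul]
  have h := Nat.sub_dvd_pow_sub_pow (2 ^ 2) 1 c
  rwa [one_pow] at h

theorem three_dvd_two_pow_add_one {n : ℕ} (hn : Odd n) : 3 ∣ 2 ^ n + 1 := by
  simpa using hn.nat_add_dvd_pow_add_pow 2 1

/-- `q = 2^n` with `q ± 1` prime powers. -/
theorem two_pow_cases {n : ℕ} (hn : 2 ≤ n) (h1 : IsPrimePow (2 ^ n - 1)) (h2 : IsPrimePow (2 ^ n + 1)) :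
    n = 2 ∨ n = 3 := by
  rcases Nat.even_or_odd n with he | ho
  · obtain ⟨i, hi, e⟩ := eq_prime_pow_of_dvd h1 Nat.prime_three (three_dvd_two_pow_sub_one he)
    have h := Spectrum.eq_one_of_pow_add_one_eq_two_pow (p := 3) (e := i) (N := n) (by norm_num) hi
      (by have := Nat.one_le_two_pow (n := n); omega)
    subst h
    left
    exact Nat.pow_right_injective le_rfl (show 2 ^ n = 2 ^ 2 by have := Nat.one_le_two_pow (n := n); omega)
  · obtain ⟨i, hi, e⟩ := eq_prime_pow_of_dvd h2 Nat.prime_three (three_dvd_two_pow_add_one ho)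
    rcases Nat.lt_or_ge i 2 with hi2 | hi2
    · have : i = 1 := by omega
      subst this
      have := Nat.pow_le_pow_right two_pos hn
      omega
    · obtain ⟨-, hN, he⟩ := Spectrum.eq_nine_of_two_pow_add_one (q := 3) (by norm_num) hi2 e
      exact Or.inr he

/-- `p = 2^k + 1` prime, `(p + 1)/2` a prime power. -/
theorem fermat_cases {k : ℕ} (hp : (2 ^ k + 1).Prime) (hk : 2 ≤ k) (h : IsPrimePow (2 ^ (k - 1) + 1)) :
    k = 2 ∨ k = 4 := by
  have he : Even k := by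
    by_contra ho
    have h3 := three_dvd_two_pow_add_one (Nat.not_even_iff_odd.1 ho)
    have := (Nat.prime_dvd_prime_iff_eq Nat.prime_three hp).1 h3
    have := Nat.pow_le_pow_right two_pos hk
    omega
  obtain ⟨i, hi, e⟩ := eq_prime_pow_of_dvd h Nat.prime_three
    (three_dvd_two_pow_add_one (Nat.Even.sub_odd (by omega) he odd_one))
  rcases Nat.lt_or_ge i 2 with hi2 | hi2
  · have : i = 1 := by omega
    subst this
    have : 2 ^ (k - 1) = 2 ^ 1 := by omega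
    have := Nat.pow_right_injective le_rfl this
    omega
  · obtain ⟨-, -, h3⟩ := Spectrum.eq_nine_of_two_pow_add_one (q := 3) (by norm_num) hi2 e
    omega

/-- `p = 2^k - 1` prime, `(p - 1)/2` a prime power. -/
theorem mersenne_cases {k : ℕ} (hp : (2 ^ k - 1).Prime) (hk : 3 ≤ k) (h : IsPrimePow (2 ^ (k - 1) - 1)) :
    k = 3 := by
  have ho : Odd k := by
    by_contra he
    have h3 := three_dvd_two_pow_sub_one (Nat.not_odd_iff_even.1 he)
    have := (Nat.prime_dvd_prime_iff_eq Nat.prime_three hp).1 h3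
    have := Nat.pow_le_pow_right two_pos hk
    omega
  obtain ⟨i, hi, e⟩ := eq_prime_pow_of_dvd h Nat.prime_three
    (three_dvd_two_pow_sub_one (Nat.Odd.sub_odd ho odd_one))
  have h1 := Spectrum.eq_one_of_pow_add_one_eq_two_pow (p := 3) (e := i) (N := k - 1) (by norm_num) hi
    (by have := Nat.one_le_two_pow (n := k - 1); omega)
  subst h1
  have := Nat.pow_right_injective le_rfl
    (show 2 ^ (k - 1) = 2 ^ 2 by have := Nat.one_le_two_pow (n := k - 1); omega)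
  omega

/-- Powers of five of the form `q ± √(2q) + 1`. -/
theorem suzuki_five {m j : ℕ}
    (h : 5 ^ j = 2 ^ (2 * m + 1) + 2 ^ (m + 1) + 1 ∨ 5 ^ j = 2 ^ (2 * m + 1) - 2 ^ (m + 1) + 1) : m ≤ 2 := by
  by_contra hm
  have hm3 : 3 ≤ m := by omega
  have hd : 2 ^ (m + 1) ∣ 5 ^ j - 1 := by
    have e : 2 ^ (2 * m + 1) = 2 ^ (m + 1) * 2 ^ m := by rw [← pow_add]; congr 1; omega
    rcases h with h | h <;> rw [h, Nat.add_sub_cancel, e]
    · exact dvd_add (dvd_mul_right _ _) dvd_rfl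
    · exact Nat.dvd_sub (dvd_mul_right _ _) dvd_rfl
  have h5 : ((5 : ZMod (2 ^ ((m - 1) + 2)))) ^ j = 1 := by
    have := (ZMod.natCast_eq_zero_iff (5 ^ j - 1) (2 ^ ((m - 1) + 2))).2
      (by rw [show m - 1 + 2 = m + 1 by omega]; exact hd)
    rwa [Nat.cast_sub (Nat.one_le_pow _ _ (by norm_num)), Nat.cast_pow, sub_eq_zero, Nat.cast_one] at this
  have hdj := orderOf_dvd_of_pow_eq_one h5
  rw [ZMod.orderOf_five] at hdj
  have hj0 : j ≠ 0 := by
    rintro rfl
    have := Nat.pow_lt_pow_right (a := 2) (by norm_num) (show m + 1 < 2 * m + 1 by omega)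
    have := Nat.two_pow_pos (m + 1)
    omega
  have hj := Nat.le_of_dvd (Nat.pos_of_ne_zero hj0) hdj
  have hmj : m + 1 ≤ j := le_trans (by
    clear h hd h5 hdj hj hj0 hm
    induction m, hm3 using Nat.le_induction with
    | base => norm_num
    | succ n hn ih =>
      have : 2 ^ (n + 1 - 1) = 2 * 2 ^ (n - 1) := by rw [← pow_succ']; congr 1; omega
      omega) hj
  have hbig : 5 ^ (m + 1) ≤ 5 ^ j := Nat.pow_le_pow_right (by norm_num) hmj
  have h4 : 4 ^ (m + 1) < 5 ^ (m + 1) := Nat.pow_lt_pow_left (by norm_num) (by omega)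
  have e4 : 4 ^ (m + 1) = 2 * 2 ^ (2 * m + 1) := by
    rw [← pow_succ', show (4 : ℕ) = 2 ^ 2 by norm_num, ← pow_mul]; rfl
  have hlt := Nat.pow_lt_pow_right (a := 2) (by norm_num) (show m + 1 < 2 * m + 1 by omega)
  have h1 := Nat.two_pow_pos (m + 1)
  omega

theorem five_dvd_suzuki (m : ℕ) :
    5 ∣ 2 ^ (2 * m + 1) + 2 ^ (m + 1) + 1 ∨ 5 ∣ 2 ^ (2 * m + 1) - 2 ^ (m + 1) + 1 := by
  refine Nat.prime_five.dvd_mul.1 ?_
  have e : 2 ^ (2 * m + 1) = 2 ^ (m + 1) * 2 ^ m := by rw [← pow_add]; congr 1; omega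
  have hle : 2 ^ (m + 1) ≤ 2 ^ (2 * m + 1) := Nat.pow_le_pow_right two_pos (by omega)
  have key : (2 ^ (2 * m + 1) + 2 ^ (m + 1) + 1) * (2 ^ (2 * m + 1) - 2 ^ (m + 1) + 1) = 4 ^ (2 * m + 1) + 1 := by
    zify [hle]
    have h2 : ((2 : ℤ) ^ (m + 1)) ^ 2 = 2 * 2 ^ (2 * m + 1) := by
      rw [← pow_mul, ← pow_succ']; congr 1; ring
    rw [show (4 : ℤ) = 2 ^ 2 by norm_num, ← pow_mul, mul_comm 2 (2 * m + 1), pow_mul]
    linear_combination -h2
  rw [key]
  simpa using (show Odd (2 * m + 1) from odd_two_mul_add_one m).nat_add_dvd_pow_add_pow 4 1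

end CfsgLib.Eppo
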