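import Cfsg.Agent.Lib.Eppo.Basic
import Cfsg.Agent.Lib.Eppo.SimpleArith
import Cfsg.Agent.Lib.SuzukiIdent.Classification
import Cfsg.Agent.Lib.CIT.PSLTwo
import Cfsg.Agent.Lib.SmallGroups.Basic
import Cfsg.Agent.Lib.Suzuki.LieBridge
import Cfsg.Agent.S0333

/-!
The simple groups in which all elements have prime power order.
-/

set_option autoImplicit false

open Cfsg Matrix

namespace CfsgLib.Eppo

universe u

variable {G : Type u} [Group G] [Finite G]

/-- Elements of the torus in `PSL₂`. -/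
theorem exists_orderOf_torus {F : Type*} [Field F] [Fintype F] {e : ℕ}
    (he : e = Fintype.card F - 1 ∨ e = Fintype.card F + 1) (he3 : 3 ≤ e) :
    ∃ g : ProjectiveSpecialLinearGroup (Fin 2) F, orderOf g ∣ e ∧
      e ∣ orderOf g * Nat.gcd 2 (Fintype.card F - 1) := by
  obtain ⟨g, -, hg, -⟩ := CfsgLib.SL2.exists_torus_generator (F := F) (e := e)
    (by rwa [Nat.card_eq_fintype_card]) he3
  refine ⟨QuotientGroup.mk' _ g, hg ▸ orderOf_map_dvd _ g, ?_⟩
  conv_lhs => rw [← hg]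
  refine orderOf_dvd_of_pow_eq_one ?_
  rw [pow_mul]
  have hmem : g ^ orderOf (QuotientGroup.mk' (Subgroup.center (SpecialLinearGroup (Fin 2) F)) g) ∈
      Subgroup.center (SpecialLinearGroup (Fin 2) F) := by
    refine (QuotientGroup.eq_one_iff _).1 ?_
    show QuotientGroup.mk' _ (g ^ _) = 1
    rw [map_pow, pow_orderOf_eq_one]
  have := pow_card_eq_one' (x := (⟨_, hmem⟩ : Subgroup.center (SpecialLinearGroup (Fin 2) F)))
  rw [CfsgLib.SL2.center_card_eq_gcd, Nat.card_eq_fintype_card] at this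
  exact congrArg Subtype.val this

theorem isPrimePow_torus_even {F : Type*} [Field F] [Fintype F]
    (hE : IsEPPO (ProjectiveSpecialLinearGroup (Fin 2) F)) {e : ℕ}
    (he : e = Fintype.card F - 1 ∨ e = Fintype.card F + 1) (he3 : 3 ≤ e) (hev : Even (Fintype.card F)) :
    IsPrimePow e := by
  obtain ⟨g, h1, h2⟩ := exists_orderOf_torus he he3
  rw [(Nat.coprime_two_left.2 (by
    rcases hev with ⟨c, hc⟩
    exact Nat.odd_iff.2 (by have := Fintype.card_pos (α := F); omega))).gcd_eq_one, mul_one] at h2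
  exact hE.isPrimePow_of_orderOf (Nat.dvd_antisymm h1 h2) (by omega)

theorem isPrimePow_torus_half {F : Type*} [Field F] [Fintype F]
    (hE : IsEPPO (ProjectiveSpecialLinearGroup (Fin 2) F)) {c : ℕ}
    (he : 2 * c = Fintype.card F - 1 ∨ 2 * c = Fintype.card F + 1) (hc : Odd c) (hc1 : 1 < c) :
    IsPrimePow c := by
  obtain ⟨g, h1, h2⟩ := exists_orderOf_torus he (by omega)
  have h3 : c ∣ orderOf g := by
    refine (Nat.coprime_two_right.2 hc).dvd_of_dvd_mul_right ((dvd_mul_left c 2).trans (h2.trans ?_))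
    exact mul_dvd_mul_left _ (Nat.gcd_dvd_left 2 _)
  have hg : g ≠ 1 := by
    rintro rfl
    rw [orderOf_one] at h3
    exact hc1.ne' (Nat.dvd_one.1 h3)
  exact (hE g hg).dvd h3 hc1.ne'

theorem card_psl_two [IsSimpleGroup G] (hG : ¬ IsMulCommutative G) (hE : IsEPPO G)
    {F : Type*} [Field F] [Fintype F] (e : G ≃* ProjectiveSpecialLinearGroup (Fin 2) F) :
    Fintype.card F ∈ ({4, 5, 7, 8, 9, 17} : Finset ℕ) := by
  have hE' := hE.of_equiv e
  have h1 : 1 < Fintype.card F := Fintype.one_lt_card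
  have hsmall : Fintype.card F ≠ 2 ∧ Fintype.card F ≠ 3 := by
    have hG' : Nat.card G = _ := (Nat.card_congr e.toEquiv).trans CfsgLib.SL2.card_PSL
    rw [Nat.card_eq_fintype_card (α := F)] at hG'
    constructor <;> intro hq <;> rw [hq] at hG' <;> norm_num at hG'
    all_goals
      obtain ⟨P⟩ : Nonempty (Sylow 2 G) := inferInstance
      have : Fact (Nat.Prime 2) := ⟨Nat.prime_two⟩
      have h := CfsgLib.SmallGroups.two_mul_card_dvd_factorial_index hG
        (CfsgLib.SmallGroups.sylow_ne_top hG P)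
      have h6 : (P : Subgroup G).index ∣ 2 ^ 2 * 3 :=
        (Subgroup.index_dvd_card _).trans (by rw [hG']; norm_num)
      have hco : Nat.Coprime (P : Subgroup G).index (2 ^ 2) :=
        ((Nat.prime_two.coprime_iff_not_dvd).2 P.not_dvd_index).symm.pow_right 2
      have hi := Nat.le_of_dvd (by norm_num) (hco.dvd_of_dvd_mul_left h6)
      have := h.trans (Nat.factorial_dvd_factorial hi)
      rw [hG'] at this
      norm_num [Nat.factorial] at this
  simp only [Finset.mem_insert, Finset.mem_singleton]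
  rcases CfsgLib.CIT.card_of_isCIT_psl hE'.isCIT with h | ⟨n, h⟩ | ⟨hp, k, h | h⟩
  · omega
  · have hn : 2 ≤ n := by
      by_contra hn
      interval_cases n <;> omega
    have h4 := Nat.pow_le_pow_right two_pos hn
    have hev : Even (Fintype.card F) := h ▸ Nat.even_pow.2 ⟨even_two, by omega⟩
    rcases two_pow_cases hn
      (h ▸ isPrimePow_torus_even hE' (Or.inl rfl) (by omega) hev)
      (h ▸ isPrimePow_torus_even hE' (Or.inr rfl) (by omega) hev) with rfl | rfl <;> omega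
  · have hk : 2 ≤ k := by
      by_contra hk
      interval_cases k <;> omega
    have e2 : 2 * 2 ^ (k - 1) = 2 ^ k := by rw [← pow_succ']; congr 1; omega
    have := isPrimePow_torus_half hE' (c := 2 ^ (k - 1) + 1) (Or.inr (by omega))
      ((Nat.even_pow.2 ⟨even_two, by omega⟩ : Even (2 ^ (k - 1))).add_one) (by have := Nat.two_pow_pos (k - 1); omega)
    rcases fermat_cases (h ▸ hp) hk this with rfl | rfl <;> omega
  · have hk : 3 ≤ k := by
      by_contra hk
      interval_cases k <;> omega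
    have e2 : 2 * 2 ^ (k - 1) = 2 ^ k := by rw [← pow_succ']; congr 1; omega
    have h4 := Nat.pow_le_pow_right two_pos (show 2 ≤ k - 1 by omega)
    have := isPrimePow_torus_half hE' (c := 2 ^ (k - 1) - 1) (Or.inl (by omega))
      (Nat.Even.sub_odd (by omega) (Nat.even_pow.2 ⟨even_two, by omega⟩) odd_one) (by omega)
    have := mersenne_cases ((show Fintype.card F = 2 ^ k - 1 by omega) ▸ hp) hk this
    subst this
    omega

theorem suzuki_le_two {F : Type} [Field F] [Fintype F] {m : ℕ} (hm : 1 ≤ m)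
    (hF : Fintype.card F = 2 ^ (2 * m + 1)) (hE : IsEPPO (Cfsg.Lie.Sz F (2 ^ (m + 1)))) : m ≤ 2 := by
  have h := CfsgLib.Suzuki.Hyp.of_fintype hm hF
  have hE' : IsEPPO (Cfsg.Sz F m) := hE.of_equiv h.lieEquiv.symm
  have hle : 2 ^ (m + 1) ≤ 2 ^ (2 * m + 1) := Nat.pow_le_pow_right two_pos (by omega)
  have key : ∀ k ∈ ({2 ^ (2 * m + 1) + 2 ^ (m + 1) + 1, 2 ^ (2 * m + 1) - 2 ^ (m + 1) + 1} : Set ℕ),
      5 ∣ k → ∃ j, k = 5 ^ j := by
    intro k hk h5
    obtain ⟨U, hU, hc, -, -⟩ := Cfsg.Agent.S0333.result hm hF k hk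
    obtain ⟨g, hg⟩ := hU.exists_ofOrder_eq_natCard
    have h1 : 1 < k := by
      simp only [Set.mem_insert_iff, Set.mem_singleton_iff] at hk
      have := Nat.two_pow_pos (2 * m + 1)
      have := Nat.pow_lt_pow_right (a := 2) (by norm_num) (show m + 1 < 2 * m + 1 by omega)
      omega
    obtain ⟨i, -, e⟩ := eq_prime_pow_of_dvd
      (hE'.isPrimePow_of_orderOf (g := (g : Cfsg.Sz F m)) (by rw [Subgroup.orderOf_coe, hg, hc]) h1)
      Nat.prime_five h5
    exact ⟨i, e⟩
  rcases five_dvd_suzuki m with h5 | h5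
  · obtain ⟨j, hj⟩ := key _ (by simp) h5
    exact suzuki_five (Or.inl hj.symm)
  · obtain ⟨j, hj⟩ := key _ (by simp) h5
    exact suzuki_five (Or.inr hj.symm)

/-- Simple groups with all elements of prime power order. -/
theorem simple_cases [IsSimpleGroup G] (hG : ¬ IsMulCommutative G) (hE : IsEPPO G) :
    (∃ (F : Type) (_ : Field F) (_ : Fintype F), Fintype.card F ∈ ({4, 5, 7, 8, 9, 17} : Finset ℕ) ∧
      Nonempty (G ≃* Matrix.ProjectiveSpecialLinearGroup (Fin 2) F)) ∨
    (∃ (F : Type) (_ : Field F) (_ : Fintype F), Fintype.card F = 4 ∧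
      Nonempty (G ≃* Matrix.ProjectiveSpecialLinearGroup (Fin 3) F)) ∨
    (∃ (F : Type) (_ : Field F) (_ : Fintype F),
      (Fintype.card F = 8 ∧ Nonempty (G ≃* ↥(Cfsg.Lie.Sz F 4))) ∨
      (Fintype.card F = 32 ∧ Nonempty (G ≃* ↥(Cfsg.Lie.Sz F 8)))) := by
  have hna : ∃ a b : G, a * b ≠ b * a := by
    by_contra! hc
    exact hG ⟨⟨hc⟩⟩
  rcases CfsgLib.SuzukiIdent.simple_cit hna hE.isCIT with ⟨F, _, _, -, ⟨e⟩⟩ | h | ⟨F, _, _, m, hm, hF, ⟨e⟩⟩
  · exact Or.inl ⟨F, _, _, card_psl_two hG hE e, ⟨e⟩⟩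
  · exact Or.inr (Or.inl h)
  refine Or.inr (Or.inr ⟨F, ‹_›, ‹_›, ?_⟩)
  have := suzuki_le_two hm hF (hE.of_equiv e)
  interval_cases m
  · exact Or.inl ⟨hF, ⟨e⟩⟩
  · exact Or.inr ⟨hF, ⟨e⟩⟩

end CfsgLib.Eppo
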